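import Mathlib

/-!
# Arithmetic for the rank 3 groups with a Frobenius suborbit
-/

namespace Cfsg.Lib.LG4

theorem num5_zero {m ν lam q S P N k : ℕ} (m2 : 2 ≤ m) (ν0 : 0 < ν) (hk : k = 1 + lam + m * (2 * ν))
    (hq : q = lam + m * ν) (h1 : 2 * ν * (2 * ν) + q * q + P = k + q * lam + N * (2 * ν))
    (h2 : 1 + q + N = k) (h3 : 2 * ν + q + S = k) (h4 : S ≤ P) : m = 2 ∧ ν = 1 ∧ lam = 0 := by
  obtain rfl : N = m * ν := by nlinarith
  obtain ⟨a, rfl⟩ : ∃ a, m = a + 2 := ⟨m - 2, by omega⟩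
  obtain ⟨b, rfl⟩ : ∃ b, ν = b + 1 := ⟨ν - 1, by omega⟩
  obtain rfl : S = 1 + a * (b + 1) := by nlinarith
  subst hq hk
  have h5 : lam * (a * b + a + 2 * b + 1) + (b + 1) * (a * a * (b + 1) + 2 * a * b + a + 4 * b) ≤ 0 := by
    nlinarith
  have h6 := (Nat.mul_eq_zero.mp (by omega : lam * (a * b + a + 2 * b + 1) = 0)).resolve_right
    (by omega)
  have h7 := (Nat.mul_eq_zero.mp (by omega :
    (b + 1) * (a * a * (b + 1) + 2 * a * b + a + 4 * b) = 0)).resolve_left (by omega)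
  omega

theorem num5_two {μ θ S k N : ℕ} (μ2 : 2 ≤ μ) (hk : k = 4 * μ + 1)
    (h1 : μ * μ + μ * θ * (μ * θ) + S * S = k + μ * θ * (2 * μ) + N * μ)
    (h2 : 1 + μ * θ + N = k) (h3 : μ + μ * θ + S = k) : False := by
  have h4 : θ ≤ 3 := by nlinarith
  subst hk
  interval_cases θ
  · obtain rfl : S = 3 * μ + 1 := by omega
    obtain rfl : N = 4 * μ := by omega
    nlinarith
  · obtain rfl : S = 2 * μ + 1 := by omega
    obtain rfl : N = 3 * μ := by omega
    nlinarith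
  · obtain rfl : S = μ + 1 := by omega
    obtain rfl : N = 2 * μ := by omega
    nlinarith
  · obtain rfl : S = 1 := by omega
    obtain rfl : μ = N := by omega
    have : μ * (3 * μ) = μ * 4 := by nlinarith
    have := Nat.eq_of_mul_eq_mul_left (by omega) this
    omega

theorem num5_one {m δ j θ S P N k μ : ℕ} (m2 : 2 ≤ m) (δ0 : 0 < δ) (hμ : μ = δ * (2 * j)) (j0 : 0 < j)
    (j2 : j ≠ 2) (hδ : δ = 1 → μ = 2) (hk : k = 1 + m * μ)
    (hq : μ * θ + δ * (m + 2) = m * (δ * j)) (h1 : μ * μ + μ * θ * (μ * θ) + P = k + N * μ)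
    (h2 : 1 + μ * θ + N = k) (h3 : μ + μ * θ + S = k) (h4 : S ≤ P) (h5 : S ^ 2 ≤ (m - 1) * P) :
    False := by
  have a1 : 2 * j * θ + (m + 2) = m * j :=
    Nat.eq_of_mul_eq_mul_left δ0 (by rw [hμ] at hq; linarith)
  have j3 : 3 ≤ j := by
    rcases Nat.lt_or_ge j 3 with h | h
    · obtain rfl : j = 1 := by omega
      omega
    · exact h
  have μ6 : 2 * j ≤ μ := hμ ▸ Nat.le_mul_of_pos_left _ δ0
  have a2 : m ≤ 3 * θ + 1 := by
    by_contra hlt
    obtain ⟨a, rfl⟩ : ∃ a, m = 3 * θ + 2 + a := ⟨m - (3 * θ + 2), by omega⟩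
    obtain ⟨b, rfl⟩ : ∃ b, j = b + 3 := ⟨j - 3, by omega⟩
    nlinarith
  have a3 : μ * (1 + θ * θ + θ) ≤ 1 + θ + μ * m := by
    refine Nat.le_of_mul_le_mul_left (c := μ) ?_ (by omega)
    have : N * μ + μ * θ * μ = m * μ * μ := by rw [← add_mul]; congr 1; omega
    nlinarith
  have a4 : θ ≤ 2 := by
    by_contra hlt
    obtain ⟨a, rfl⟩ : ∃ a, θ = a + 3 := ⟨θ - 3, by omega⟩
    have : μ * m ≤ μ * (3 * (a + 3) + 1) := Nat.mul_le_mul_left _ a2
    nlinarith
  interval_cases θ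
  · omega
  · have : m ≤ 4 := by omega
    interval_cases m
    · omega
    · obtain rfl : j = 5 := by omega
      obtain rfl : S = μ + 1 := by omega
      obtain rfl : N = 2 * μ := by omega
      obtain rfl : P = 3 * μ + 1 := by nlinarith
      norm_num at h5
      nlinarith
    · obtain rfl : j = 3 := by omega
      obtain rfl : S = 2 * μ + 1 := by omega
      obtain rfl : N = 3 * μ := by omega
      obtain rfl : P = μ * μ + 4 * μ + 1 := by nlinarith
      norm_num at h5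
      have : μ ≤ 8 := by nlinarith
      omega
  · have : m = 7 := by
      by_contra hne
      have : μ * m ≤ μ * 6 := Nat.mul_le_mul_left _ (by omega)
      omega
    subst this
    obtain rfl : S = 4 * μ + 1 := by omega
    obtain rfl : N = 5 * μ := by omega
    obtain rfl : P = 7 * μ + 1 := by nlinarith
    norm_num at h5
    nlinarith

theorem num5 {m e c k lam mu r s x₁ x₂ b₁ T δ q θ S P N : ℕ} (m2 : 2 ≤ m) (hc : c = m * e)
    (c1 : 1 < c) (hk : k = 1 + lam + c * s) (s0 : 0 < s) (hmu : mu = e * s) (hlam : lam = c * r)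
    (he : 2 ∣ e) (hn : 1 + k + k * m = m + 2 + x₁ + x₂) (h1 : b₁ * ((m + 2) * c) = x₁ * c)
    (h2 : b₁ ≤ c) (h3 : (T + δ) * ((m + 2) * c) = x₂ * e) (h4 : T + δ ≤ e) (h5 : T * 2 = mu)
    (h6 : x₁ = lam + m * q) (h7 : q = e * θ) (h8 : mu * mu + q * q + P = k + q * lam + N * mu)
    (h9 : 1 + q + N = k) (h10 : mu + q + S = k) (h11 : S ≤ P) (h12 : P ≤ S * S)
    (h13 : S ^ 2 ≤ (m - 1) * P) (h14 : lam = c → s = 1 → c + 4 ≤ 3 * e)
    (h15 : s = 1 → δ ≠ 0 → ∃ j, e = δ * (2 * j) ∧ j ≠ 2 ∧ (δ = 1 → e = 2)) :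
    k = 5 ∧ c = 4 ∧ m = 2 := by
  have e0 : 0 < e := Nat.pos_of_ne_zero fun h => by simp [hc, h] at c1
  have a1 : x₁ = b₁ * (m + 2) := Nat.eq_of_mul_eq_mul_right (by omega : 0 < c) (by linarith)
  have a2 : x₂ = (T + δ) * ((m + 2) * m) := Nat.eq_of_mul_eq_mul_right e0 (by rw [← h3, hc]; ring)
  have a3 : (r + s) * (1 + m) ≤ 2 * (m + 2) := by
    refine Nat.le_of_mul_le_mul_left (c := c) ?_ (by omega)
    have b1 : x₁ ≤ c * (m + 2) := a1 ▸ Nat.mul_le_mul_right _ h2
    have b2 : x₂ ≤ e * ((m + 2) * m) := a2 ▸ Nat.mul_le_mul_right _ h4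
    have b3 : e * ((m + 2) * m) = c * (m + 2) := by rw [hc]; ring
    rw [hk, hlam] at hn
    linarith
  have a4 : r + s ≤ 2 := by
    by_contra h
    have := Nat.mul_le_mul_right (1 + m) (show 3 ≤ r + s by omega)
    omega
  have a5 : k = 1 + lam + m * (2 * T) := by rw [hk, hc, mul_comm 2, h5, hmu]; ring
  have a6 : q + δ * (m + 2) = lam + m * T := by
    refine Nat.eq_of_mul_eq_mul_left (by omega : 0 < m) ?_
    rw [a2, h6, a5] at hn
    linarith
  have T0 : 0 < T := by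
    have := Nat.mul_pos e0 s0
    omega
  by_cases hδ : δ = 0
  · subst hδ
    obtain ⟨rfl, rfl, rfl⟩ := num5_zero m2 T0 a5 (by omega) (by rwa [mul_comm 2 T, h5]) h9
      (by omega) h11
    obtain ⟨e', rfl⟩ := he
    have : e' * s = 1 := by linarith
    obtain rfl := Nat.eq_one_of_mul_eq_one_right this
    omega
  obtain rfl : s = 1 := by
    by_contra h
    obtain rfl : s = 2 := by omega
    omega
  obtain rfl : mu = e := by omega
  subst h7
  exfalso
  obtain rfl | rfl : r = 1 ∨ r = 0 := by omega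
  · have := h14 (by omega) rfl
    obtain rfl : m = 2 := by
      by_contra h
      have : 3 * mu ≤ m * mu := Nat.mul_le_mul_right _ (by omega)
      omega
    obtain rfl : P = S * S := by
      norm_num [sq] at h13
      omega
    exact num5_two (k := k) (by omega) (by omega) (by rw [h8, hlam, hc]; ring) h9 h10
  · obtain ⟨j, b1, b2, b3⟩ := h15 rfl hδ
    obtain rfl : lam = 0 := by omega
    have b4 : T = δ * j := by linarith
    exact num5_one (k := k) m2 (Nat.pos_of_ne_zero hδ) b1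
      (Nat.pos_of_ne_zero fun h => e0.ne' (by rw [b1, h]; simp)) b2
      b3 (by rw [hk, hc]; ring) (by rw [a6, b4, zero_add]) (by simpa using h8) h9 h10 h11 h13

end Cfsg.Lib.LG4
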