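import Cfsg.Agent.LG4.R3Free
import Cfsg.Agent.LG4.R3Num
import Cfsg.Agent.LG4.TwoGrp

/-!
# Rank 3 groups with a Frobenius suborbit: semiregular kernel of odd order, the degree 16 case
-/

namespace Cfsg.Lib.LG4
open MulAction Cfsg.Lib.Perm

variable {G X : Type*} [Group G] [MulAction G X]

/-- The stabiliser of an unordered pair. -/
def pairStab (G : Type*) {X : Type*} [Group G] [MulAction G X] (a b : X) : Subgroup G where
  carrier := {g | (g • a = a ∧ g • b = b) ∨ (g • a = b ∧ g • b = a)}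
  one_mem' := Or.inl ⟨one_smul _ _, one_smul _ _⟩
  mul_mem' := by
    rintro g g' (⟨h1, h2⟩ | ⟨h1, h2⟩) (⟨h3, h4⟩ | ⟨h3, h4⟩) <;> simp [mul_smul, *]
  inv_mem' := by
    rintro g (⟨h1, h2⟩ | ⟨h1, h2⟩)
    exacts [Or.inl ⟨inv_smul_eq_iff.mpr h1.symm, inv_smul_eq_iff.mpr h2.symm⟩,
      Or.inr ⟨inv_smul_eq_iff.mpr h2.symm, inv_smul_eq_iff.mpr h1.symm⟩]

theorem trans_of_free [Finite G] [Finite X] (H : Subgroup G) (S : Set X)
    (hS : ∀ g ∈ H, ∀ x ∈ S, g • x ∈ S) (hf : ∀ g ∈ H, ∀ x ∈ S, g • x = x → g = 1)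
    (hc : S.ncard ≤ Nat.card H) {x y : X} (hx : x ∈ S) (hy : y ∈ S) : ∃ g ∈ H, g • x = y := by
  have h1 := card_eq_ncard_mul_card_inf_stabilizer H x _ fun z => Iff.rfl (a := ∃ g ∈ H, g • x = z)
  rw [(Subgroup.eq_bot_iff_forall (H ⊓ stabilizer G x)).mpr fun g hg => hf g hg.1 x hx hg.2,
    Subgroup.card_bot, mul_one] at h1
  exact (Set.eq_of_subset_of_ncard_le (s := {z | ∃ g ∈ H, g • x = z})
    (by rintro _ ⟨g, hg, rfl⟩; exact hS g hg x hx) (hc.trans h1.le)).ge hy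

namespace R3
variable {adj : X → X → Prop} {K : X → Subgroup G} {k l c e lam mu : ℕ}
  (h : R3 G adj K k l c e lam mu) [Finite G] [Finite X]
include h

/-- The inequality from the local graph when it has `2c + 1` points and valency `c`. -/
theorem local_ineq [Nonempty X] (hlam : lam = c) (hk : k = 1 + c + c) : c + 4 ≤ 3 * mu := by
  obtain ⟨A⟩ := ‹Nonempty X›
  have hN : ∀ v, adj A v → {u | adj A u ∧ Na adj v u}.ncard = c := fun v hv => by
    have h1 := ncard_split {u ∈ {u | adj A u} | u ≠ v} (adj v ·)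
    have h2 := ncard_erase (S := {u | adj A u}) hv
    rw [show {a ∈ {u ∈ {u | adj A u} | u ≠ v} | adj v a} = {z | adj A z ∧ adj v z} from
      Set.ext fun z => ⟨fun h' => ⟨h'.1.1, h'.2⟩, fun h' => ⟨⟨h'.1, (h.ne h'.2).symm⟩, h'.2⟩⟩,
      show {a ∈ {u ∈ {u | adj A u} | u ≠ v} | ¬ adj v a} = {z | adj A z ∧ Na adj v z} from
      Set.ext fun z => ⟨fun h' => ⟨h'.1.1, h'.1.2.symm, h'.2⟩, fun h' => ⟨⟨h'.1, h'.2.1.symm⟩, h'.2.2⟩⟩,
      h.hlam hv] at h1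
    rw [h.hk] at h2
    omega
  have hM : ∀ u v, adj A u → adj A v → Na adj v u →
      {z | adj A z ∧ adj v z ∧ adj u z}.ncard + 1 ≤ mu := fun u v hu hv huv => by
    rw [← h.hmu huv, ← ncard_erase (S := {z | adj v z ∧ adj u z}) ⟨h.symm hv, h.symm hu⟩,
      Nat.add_le_add_iff_right]
    exact Set.ncard_le_ncard fun z hz => ⟨hz.2, (h.ne hz.1).symm⟩
  have hL : ∀ v z, adj A v → adj A z → adj v z →
      c ≤ {y | adj A y ∧ adj v y ∧ adj z y}.ncard + mu := fun v z hv hz hvz => by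
    obtain ⟨a, ha⟩ : ∃ a, {y | adj A y ∧ adj v y ∧ adj z y}.ncard = a := ⟨_, rfl⟩
    have h1 := dc_le (fun z u => (adj A z ∧ adj v z) ∧ (adj A u ∧ Na adj v u) ∧ adj z u)
      {z | adj A z ∧ adj v z} {u | adj A u ∧ Na adj v u} (c - 1 - a) (mu - 1) (fun z' hz' => by
        obtain ⟨g, hg, rfl⟩ := trans_of_free (stabilizer G A ⊓ stabilizer G v) {z | adj A z ∧ adj v z}
          (fun g hg z hz => ⟨h.adj_fix hg.1 hz.1, h.adj_fix hg.2 hz.2⟩)
          (fun g hg z hz e => h.path hv hz.1 (h.ne hz.2) hg.1 hg.2 e)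
          (by rw [h.hlam hv, h.hc hv, hlam]) ⟨hz, hvz⟩ hz'
        have h1 := ncard_split {u ∈ {u | adj A u ∧ adj (g • z) u} | u ≠ v} (adj v ·)
        have h2 := ncard_erase (S := {u | adj A u ∧ adj (g • z) u}) ⟨hv, h.symm hz'.2⟩
        rw [h.hlam hz'.1] at h2
        have h3 : {a ∈ {u ∈ {u | adj A u ∧ adj (g • z) u} | u ≠ v} | adj v a}.ncard ≤ a := by
          rw [← ha]
          exact Set.ncard_le_ncard_of_injOn (g⁻¹ • ·) (fun y hy =>
            ⟨h.adj_fix (inv_mem hg).1 hy.1.1.1, h.adj_fix (inv_mem hg).2 hy.2,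
              by simpa using h.smul g⁻¹ hy.1.1.2⟩) fun _ _ _ _ e => MulAction.injective g⁻¹ e
        refine le_trans (by omega) (Set.ncard_le_ncard
          (s := {a ∈ {u ∈ {u | adj A u ∧ adj (g • z) u} | u ≠ v} | ¬ adj v a}) fun y hy =>
            ⟨hz', ⟨hy.1.1.1, hy.1.2.symm, hy.2⟩, hy.1.1.2⟩))
      (fun _ _ h' => h'.2.1) fun u hu => by
        have := hM u v hu.1 hv hu.2
        exact le_trans (Set.ncard_le_ncard (t := {z | adj A z ∧ adj v z ∧ adj u z})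
          fun z hz => ⟨hz.1.1, hz.1.2, h.symm hz.2.2⟩) (by omega)
    rw [h.hlam hv, hN v hv, hlam] at h1
    have := Nat.le_of_mul_le_mul_left h1 (by have := h.one_lt; omega)
    have := h.one_lt
    obtain ⟨u, hu, hu'⟩ := h.notcl hv
    have := hM u v hu hv hu'
    omega
  obtain ⟨B, hB⟩ := h.ex_adj A
  obtain ⟨u, hu, hBu⟩ := h.notcl hB
  have hsub : ∀ (S : Set X) (p : X → Prop), B ∈ S → u ∈ S → {z ∈ S | p z}.ncard + 2 ≤ S.ncard ∨
      p B ∨ p u := fun S p h1 h2 => by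
    by_cases h3 : p B
    · exact Or.inr (Or.inl h3)
    by_cases h4 : p u
    · exact Or.inr (Or.inr h4)
    left
    rw [ncard_split S p, Nat.add_le_add_iff_left, ← Set.ncard_pair hBu.1]
    exact Set.ncard_le_ncard (by rintro _ (rfl | rfl); exacts [⟨h1, h3⟩, ⟨h2, h4⟩])
  have hp : ¬ ((adj B B ∨ adj u B) ∨ adj B u ∨ adj u u) := by
    rintro ((h' | h') | h' | h')
    exacts [h.irrefl _ h', hBu.2 (h.symm h'), hBu.2 h', h.irrefl _ h']
  obtain ⟨v, ⟨hv, hBv⟩, -, huv⟩ : ({z | adj A z ∧ adj B z} ∩ {z | adj A z ∧ adj u z}).Nonempty := by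
    apply Set.nonempty_of_ncard_ne_zero
    have h1 := Set.ncard_union_add_ncard_inter {z | adj A z ∧ adj B z} {z | adj A z ∧ adj u z}
    have h2 := (hsub {z | adj A z} (fun z => adj B z ∨ adj u z) hB hu).resolve_right hp
    rw [h.hlam hB, h.hlam hu, show {z | adj A z ∧ adj B z} ∪ {z | adj A z ∧ adj u z} =
      {z ∈ {z | adj A z} | adj B z ∨ adj u z} from Set.ext fun _ => and_or_left.symm] at h1
    rw [h.hk] at h2
    omega
  have h1 := Set.ncard_union_add_ncard_inter {y | adj A y ∧ adj v y ∧ adj B y}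
    {y | adj A y ∧ adj v y ∧ adj u y}
  have h2 := (hsub {z | adj A z ∧ adj v z} (fun z => adj B z ∨ adj u z) ⟨hB, h.symm hBv⟩
    ⟨hu, h.symm huv⟩).resolve_right hp
  rw [show {y | adj A y ∧ adj v y ∧ adj B y} ∪ {y | adj A y ∧ adj v y ∧ adj u y} =
    {z ∈ {z | adj A z ∧ adj v z} | adj B z ∨ adj u z} from Set.ext fun _ => by
      simp only [Set.mem_union, Set.mem_ofPred_eq]; tauto] at h1
  rw [h.hlam hv] at h2
  have h3 := hL v B hv hB (h.symm hBv)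
  have h4 := hL v u hv hu (h.symm huv)
  have h5 := hM u B hu hB hBu
  have h6 := ncard_erase (S := {z | adj A z ∧ adj B z ∧ adj u z}) ⟨hv, hBv, huv⟩
  have h7 : ({y | adj A y ∧ adj v y ∧ adj B y} ∩ {y | adj A y ∧ adj v y ∧ adj u y}).ncard ≤
      {x ∈ {z | adj A z ∧ adj B z ∧ adj u z} | x ≠ v}.ncard :=
    Set.ncard_le_ncard fun y hy => ⟨⟨hy.1.1, hy.1.2.2, hy.2.2.2⟩, (h.ne hy.1.2.1).symm⟩
  omega

variable (hf : ∀ {x y : X}, x ≠ y → ∀ u ∈ K x, u • y = y → u = 1) (hk : k % 2 = 1) (hc2 : 2 ∣ c)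
  (he2 : 2 ∣ e)
include hc2 he2

theorem exists_inv_two {x y : X} (hxy : x ≠ y) : ∃ s : G, Inv2 s ∧ s • x = x ∧ s • y = y := by
  by_cases h1 : adj x y
  · exact h.exists_inv_edge hc2 h1
  · obtain ⟨t, h2, h3⟩ := exists_inv2 _ (h.he ⟨hxy, h1⟩ ▸ he2)
    exact ⟨t, h3, h2⟩

include hk

theorem exists_rep {s : G} (hs : Inv2 s) {x z : X} (sx : s • x = x) (hxz : x ≠ z) :
    ∃ y, s • y = y ∧ ∃ u ∈ K x, u • y = z := by
  obtain ⟨s', hs', h1, h2⟩ := h.exists_inv_two hc2 he2 hxz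
  obtain ⟨u, hu, rfl⟩ := h.conj_inv hk hs' hs h1 sx
  exact ⟨u • z, by rw [conj_smul, h2], u⁻¹, inv_mem hu, inv_smul_smul _ _⟩

omit hc2 he2 in
theorem conj_of_fix {s t : G} (hs : Inv2 s) (ht : Inv2 t) {x y : X} (sx : s • x = x)
    (ty : t • y = y) : ∃ g, g * t * g⁻¹ = s := by
  obtain ⟨g, rfl⟩ := h.tr0 y x
  obtain ⟨u, -, rfl⟩ := h.conj_inv hk (ht.conj g) hs (by rw [conj_smul, ty]) sx
  exact ⟨u * g, by group⟩

include hf

theorem fix_na {m : ℕ} (hl : l = k * m) {s : G} (hs : Inv2 s) {x : X} (sx : s • x = x) :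
    {y | Na adj x y ∧ s • y = y}.ncard = m := by
  have := dc_eq (fun y z => (Na adj x y ∧ s • y = y) ∧ ∃ u ∈ K x, u • y = z)
    {y | Na adj x y ∧ s • y = y} {y | Na adj x y} k 1
    (by rintro y _ ⟨hy, u, hu, rfl⟩; exact ⟨hy, h.na_fix (h.fixK hu) hy.1⟩)
    (fun y hy => by
      rw [← h.orb_card hf hy.1.1]
      congr 1
      ext z
      exact and_iff_right hy) fun z hz => by
      obtain ⟨y, sy, u, hu, rfl⟩ := h.exists_rep hk hc2 he2 hs sx hz.1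
      have hy : Na adj x y := by simpa using h.na_fix (h.fixK (inv_mem hu)) hz
      exact Set.ncard_eq_one.mpr ⟨y, Set.eq_singleton_iff_unique_mem.mpr ⟨⟨⟨hy, sy⟩, u, hu, rfl⟩,
        fun y' hy' => h.fix_uniq' hf hy'.1.1.1 sx (h.inv_notMem hk hs x) hy'.1.2 sy hy'.2 ⟨u, hu, rfl⟩⟩⟩
  rw [h.hl, mul_one, hl, mul_comm k] at this
  exact Nat.eq_of_mul_eq_mul_right (by omega) this

theorem fix_card {m : ℕ} (hl : l = k * m) {s : G} (hs : Inv2 s) {x : X} (sx : s • x = x) :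
    {y : X | s • y = y}.ncard = m + 2 := by
  obtain ⟨y, hy, sy⟩ := h.exists_nbr sx (h.inv_notMem hk hs x)
  rw [ncard_split _ (Na adj x ·), ← h.fix_na hf hk hc2 he2 hl hs sx, ← Set.ncard_pair (h.ne hy)]
  congr 2
  · exact Set.ext fun _ => and_comm
  · refine Set.Subset.antisymm (fun z hz => by_contra fun h1 => ?_) ?_
    · rw [Set.mem_insert_iff, Set.mem_singleton_iff, not_or] at h1
      exact hz.2 ⟨Ne.symm h1.1, fun h2 => hs.2 (h.path h2 hy h1.2 sx hz.1 sy)⟩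
    · rintro _ (rfl | rfl)
      exacts [⟨sx, fun h' => h'.1 rfl⟩, ⟨sy, fun h' => h'.2 hy⟩]

theorem card_cent {m : ℕ} (hl : l = k * m) {s : G} (hs : Inv2 s) {x : X} (sx : s • x = x) :
    Nat.card (Subgroup.centralizer {s}) = (m + 2) * c := by
  have := count_conj_orbital s x x
  rw [inf_idem, h.card_stab, show {y | ∃ g : G, g • x = y ∧ g • x = s • y} = {y | s • y = y} from
    Set.ext fun y => ⟨fun ⟨g, h1, h2⟩ => h2.symm.trans h1, fun hy =>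
      let ⟨g, hg⟩ := h.tr0 x y; ⟨g, hg, hg.trans (Eq.symm hy)⟩⟩, h.fix_card hf hk hc2 he2 hl hs sx,
    show {s' : G | (∃ g, g * s * g⁻¹ = s') ∧ s' • x = x} = {s' | Inv2 s' ∧ s' • x = x} from
      Set.ext fun s' => ⟨fun ⟨⟨g, hg⟩, h'⟩ => ⟨hg ▸ hs.conj g, h'⟩, fun h' =>
        ⟨h.conj_of_fix hk h'.1 hs h'.2 sx, h'.2⟩⟩, h.card_inv hk hc2] at this
  exact Nat.eq_of_mul_eq_mul_left (by omega : 0 < k) (by rw [this]; ring)

theorem two_nbrs {m : ℕ} (hl : l = k * m) (hc : c = m * e) {s : G} (hs : Inv2 s) {x u : X}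
    (sx : s • x = x) (hu : adj x u) (su : s • u ≠ u) : {y | adj u y ∧ s • y = y}.ncard = 2 := by
  have : Nonempty X := ⟨x⟩
  obtain ⟨w, -, h1, h2, h3⟩ := h.lam_eq
  have hev : ∀ u, s • u ≠ u → {y | adj u y ∧ s • y = y}.ncard % 2 = 0 := fun u su => by
    have := ncard_mod_two hs.1 {z | adj u z ∧ adj (s • u) z} fun z hz =>
      ⟨by simpa [hs.smul_smul] using h.smul s hz.2, h.smul s hz.1⟩
    rw [show {x ∈ {z | adj u z ∧ adj (s • u) z} | s • x = x} = {y | adj u y ∧ s • y = y} from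
      Set.ext fun y => ⟨fun h' => ⟨h'.1.1, h'.2⟩, fun h' => ⟨⟨h'.1, h'.2 ▸ h.smul s h'.1⟩, h'.2⟩⟩] at this
    rw [← this]
    by_cases h4 : adj u (s • u)
    · rw [h.hlam h4]
      exact Nat.mod_eq_zero_of_dvd (hc2.trans h3)
    · rw [h.hmu ⟨su.symm, h4⟩, h2]
      exact Nat.mod_eq_zero_of_dvd (he2.mul_right w)
  obtain ⟨B, hB, sB⟩ := h.exists_nbr sx (h.inv_notMem hk hs x)
  have h4 : ∀ u, adj x u → {y | (adj x u ∧ u ≠ B) ∧ (adj u y ∧ s • y = y) ∧ y ≠ x}.ncard + 1 =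
      {y | adj u y ∧ s • y = y}.ncard ∨ u = B := fun u hu => or_iff_not_imp_right.mpr fun e' => by
    rw [← ncard_erase (S := {y | adj u y ∧ s • y = y}) ⟨h.symm hu, sx⟩]
    congr 2
    ext y
    exact and_iff_right ⟨hu, e'⟩
  have h5 := cnt_swap fun u y => (adj x u ∧ u ≠ B) ∧ (adj u y ∧ s • y = y) ∧ y ≠ x
  rw [cnt_split _ (· = u), eq_comm, cnt_split _ (adj x ·)] at h5
  have h6 := le_cnt (fun a y => a = u ∧ (adj x a ∧ a ≠ B) ∧ (adj a y ∧ s • y = y) ∧ y ≠ x) {u}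
    _ (by rintro _ rfl; exact Set.ncard_le_ncard (s :=
      {y | (adj x _ ∧ _ ≠ B) ∧ (adj _ y ∧ s • y = y) ∧ y ≠ x}) fun y hy => ⟨rfl, hy⟩)
  have h7 := le_cnt (fun a y => ¬ a = u ∧ (adj x a ∧ a ≠ B) ∧ (adj a y ∧ s • y = y) ∧ y ≠ x)
    {a ∈ {a ∈ {a | adj x a} | a ≠ B} | a ≠ u} 1 fun a ha => by
      have h7 := (h4 a ha.1.1).resolve_right ha.1.2
      have h8 := hev a fun e' => hs.2 (h.path ha.1.1 hB ha.1.2 sx e' sB)
      exact le_trans (by omega) (Set.ncard_le_ncard (s :=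
        {y | (adj x a ∧ a ≠ B) ∧ (adj a y ∧ s • y = y) ∧ y ≠ x}) fun y hy => ⟨ha.2, hy⟩)
  have h8 := cnt_le (fun y u => adj x y ∧ (adj x u ∧ u ≠ B) ∧ (adj u y ∧ s • y = y) ∧ y ≠ x) {B} lam
    (fun y u h' => by_contra fun e' => hs.2 (h.path h'.1 hB e' sx h'.2.2.1.2 sB)) (by
      rintro _ rfl
      exact h.hlam hB ▸ Set.ncard_le_ncard fun u hu => ⟨hu.2.1.1, h.symm hu.2.2.1.1⟩)
  have h9 := cnt_le (fun y u => ¬ adj x y ∧ (adj x u ∧ u ≠ B) ∧ (adj u y ∧ s • y = y) ∧ y ≠ x)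
    {y | Na adj x y ∧ s • y = y} mu (fun y u h' => ⟨⟨h'.2.2.2.symm, h'.1⟩, h'.2.2.1.2⟩) fun y hy =>
      h.hmu hy.1 ▸ Set.ncard_le_ncard fun u hu => ⟨hu.2.1.1, h.symm hu.2.2.1.1⟩
  have uB : u ≠ B := fun e' => su (e' ▸ sB)
  have h10 := ncard_erase (S := {a | adj x a}) hB
  have h11 := ncard_erase (S := {a ∈ {a | adj x a} | a ≠ B}) ⟨hu, uB⟩
  have h12 := (h4 u hu).resolve_right uB
  have h13 := hev u su
  rw [h.fix_na hf hk hc2 he2 hl hs sx, h2, ← mul_assoc, ← hc] at h9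
  rw [h.hk] at h10
  rw [Set.ncard_singleton] at h6 h8
  omega

theorem swap_of_common {m : ℕ} (hl : l = k * m) (hc : c = m * e) {A D u : X} (hD : Na adj A D)
    (h1 : adj A u) (h2 : adj D u) : ∃ s : G, Inv2 s ∧ s • u = u ∧ s • A = D := by
  obtain ⟨t, ht, tA, tD⟩ := h.exists_inv_two hc2 he2 hD.1
  have tu : t • u ≠ u := fun e' => ht.2 (h.path (h.symm h1) (h.symm h2) hD.1 e' tA tD)
  obtain ⟨s, hs, su, stu⟩ := h.exists_inv_two hc2 he2 tu.symm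
  have h3 := h.comm_of_two hf hk hs tu.symm su stu stu (by rw [ht.smul_smul, su])
  have h4 : ({A, D} : Set X) = {y | adj u y ∧ t • y = y} := Set.eq_of_subset_of_ncard_le
    (by rintro _ (rfl | rfl); exacts [⟨h.symm h1, tA⟩, ⟨h.symm h2, tD⟩])
    (by rw [h.two_nbrs hf hk hc2 he2 hl hc ht tA h1 tu, Set.ncard_pair hD.1])
  exact ⟨s, hs, su, (h4.ge ⟨h.adj_fix su (h.symm h1), by
    rw [← mul_smul, h3, mul_smul, tA]⟩).resolve_left fun e' =>
      tu (h.eq_of_comm hk hs ht e' tA h3 ▸ su)⟩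

theorem case_five [Nonempty X] : Nat.card X = 16 ∧ Nat.card G = 320 := by
  obtain ⟨A⟩ := ‹Nonempty X›
  have : Nonempty X := ⟨A⟩
  obtain ⟨m, m2, hl, hc⟩ := h.exists_m hf
  obtain ⟨s, s0, hks, hmu, r, hlam⟩ := h.lam_eq
  obtain ⟨D, hD⟩ := h.ex_na A
  obtain ⟨t, ht, tA, tD⟩ := h.exists_inv_two hc2 he2 hD.1
  have tK := h.inv_notMem hk ht A
  obtain ⟨B, hB, tB⟩ := h.exists_nbr tA tK
  have hn := h.card_X_types t
  rw [h.card_X, h.fix_card hf hk hc2 he2 hl ht tA, hl] at hn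
  have h1 := h.count_adj t hB
  have h3 := h.count_na t hD
  rw [h.card_cent hf hk hc2 he2 hl ht tA] at h1 h3
  have h4 := (conj_swap_le ht A D).trans (h.he hD).le
  let Q : G → Prop := fun s => (∃ g, g * t * g⁻¹ = s) ∧ s • A = D
  have hQ : ∀ s, Q s → Inv2 s := by
    rintro _ ⟨⟨g, rfl⟩, -⟩
    exact ht.conj g
  rw [ncard_split {s | Q s} fun s => ∃ u, adj A u ∧ s • u = u] at h3 h4
  have hQu : ∀ s s' u, Q s → Q s' → adj A u → s • u = u → s' • u = u → s = s' :=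
    fun s s' u hs hs' hu su su' => (eq_inv_of_mul_eq_one_left (h.path (h.symm hu)
      (hs.2 ▸ h.adj_fix su (h.symm hu)) hD.1 (by rw [mul_smul, su', su])
      (by rw [mul_smul, hs'.2, invol_swap (hQ s hs).1 hs.2])
      (by rw [mul_smul, invol_swap (hQ s' hs').1 hs'.2, hs.2]))).trans (hQ s' hs').inv
  have hQ2 : ∀ s u, Q s → adj A u → s • u = u → {y | adj A y ∧ s • y = y}.ncard = 2 :=
    fun s u hs hu su => h.two_nbrs hf hk hc2 he2 hl hc (hQ s hs) su (h.symm hu) (hs.2 ▸ hD.1.symm)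
  have hQe : ∀ u, adj A u → adj D u → ∃ s, Q s ∧ s • u = u := fun u h1 h2 =>
    let ⟨s, hs, su, sA⟩ := h.swap_of_common hf hk hc2 he2 hl hc hD h1 h2
    ⟨s, ⟨h.conj_of_fix hk hs ht su tA, sA⟩, su⟩
  have h5 := dc_eq (fun s u => Q s ∧ adj A u ∧ s • u = u) {s ∈ {s | Q s} | ∃ u, adj A u ∧ s • u = u}
    {u | adj A u ∧ adj D u} 2 1
    (fun s u h' => ⟨⟨h'.1, u, h'.2⟩, h'.2.1, h.symm (h'.1.2 ▸ h.adj_fix h'.2.2 (h.symm h'.2.1))⟩)
    (fun s ⟨hs, u, hu, su⟩ => by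
      rw [← hQ2 s u hs hu su]
      congr 1
      ext y
      exact and_iff_right hs) fun u hu =>
      let ⟨s, hs, su⟩ := hQe u hu.1 hu.2
      Set.ncard_eq_one.mpr ⟨s, Set.eq_singleton_iff_unique_mem.mpr ⟨⟨hs, hu.1, su⟩, fun s' hs' =>
        hQu s' s u hs'.1 hs hu.1 hs'.2.2 su⟩⟩
  rw [h.hmu hD, mul_one] at h5
  obtain ⟨q, hq⟩ : ∃ q, {z | (∃ u ∈ K A, u • D = z) ∧ adj D z}.ncard = q := ⟨_, rfl⟩
  have hq' : ∀ y, Na adj A y → {z | (∃ u ∈ K A, u • y = z) ∧ adj y z}.ncard = q := fun y hy => by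
    obtain ⟨g, gA, rfl⟩ := h.tr2 hD hy
    rw [← hq]
    refine (Set.ncard_congr (fun z _ => g • z) ?_ (fun _ _ _ _ e => MulAction.injective g e) ?_).symm
    · rintro _ ⟨⟨u, hu, rfl⟩, h'⟩
      exact ⟨⟨_, h.conjK' hu gA, conj_smul g u D⟩, h.smul g h'⟩
    · rintro _ ⟨⟨u, hu, rfl⟩, h'⟩
      exact ⟨g⁻¹ • u • g • D, ⟨⟨_, h.conjK' hu (inv_smul_eq_iff.mpr gA.symm), by simp [mul_smul]⟩,
        by simpa using h.smul g⁻¹ h'⟩, smul_inv_smul _ _⟩
  have horb : ∀ y, adj A y → {z | ∃ u ∈ K A, u • y = z} = {z | adj A z} := fun y hy =>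
    Set.ext fun z => ⟨by rintro ⟨u, hu, rfl⟩; exact h.adj_fix (h.fixK hu) hy, h.trK hy⟩
  have hsq : ∀ y, A ≠ y → t • y = y → {x | (∃ u ∈ K A, u • y = x) ∧ adj x (t • x)}.ncard =
      {z | (∃ u ∈ K A, u • y = z) ∧ adj y z}.ncard := fun y hy ty => by
    have h6 : ∀ u ∈ K A, adj (u • y) (t • u • y) ↔ adj y ((u * u)⁻¹ • y) := fun u hu => by
      rw [← h.smul_iff u⁻¹, inv_smul_smul, ← mul_smul t, mul_inv_eq_iff_eq_mul.mp (h.invK hk ht tA hu),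
        mul_smul, ty, mul_inv_rev, mul_smul]
    have h7 : ∀ u ∈ K A, (u * u) ^ ((k + 1) / 2) = u := fun u hu => by
      rw [← sq, ← pow_mul, show 2 * ((k + 1) / 2) = k + 1 by omega, pow_succ, h.powK hu, one_mul]
    rw [orb_count hf hy fun x => adj x (t • x), orb_count hf hy]
    refine Set.ncard_congr (fun u _ => (u * u)⁻¹) (fun u hu =>
      ⟨inv_mem (mul_mem hu.1 hu.1), (h6 u hu.1).mp hu.2⟩) (fun u v hu hv e => by
        rw [← h7 u hu.1, inv_injective e, h7 v hv.1]) fun v hv => ?_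
    have h8 : (v⁻¹ ^ ((k + 1) / 2) * v⁻¹ ^ ((k + 1) / 2))⁻¹ = v := by
      rw [← (Commute.refl _).mul_pow, h7 _ (inv_mem hv.1), inv_inv]
    exact ⟨v⁻¹ ^ ((k + 1) / 2), ⟨pow_mem (inv_mem hv.1) _, (h6 _ (pow_mem (inv_mem hv.1) _)).mpr
      (h8.symm ▸ hv.2)⟩, h8⟩
  have h6 : {x | adj x (t • x)}.ncard = lam + m * q := by
    have h6 := cnt_eq (fun x y => (A ≠ y ∧ t • y = y) ∧ (∃ u ∈ K A, u • y = x) ∧ adj x (t • x))
      {x | adj x (t • x)} 1 (fun _ _ h' => h'.2.2) fun x hx => by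
        have h6 : A ≠ x := by
          rintro rfl
          exact h.irrefl _ (by rwa [Set.mem_ofPred_eq, tA] at hx)
        obtain ⟨y, ty, hy⟩ := h.exists_rep hk hc2 he2 ht tA h6
        have h7 : A ≠ y := by
          rintro rfl
          obtain ⟨u, hu, rfl⟩ := hy
          exact h6 (h.fixK hu).symm
        exact Set.ncard_eq_one.mpr ⟨y, Set.eq_singleton_iff_unique_mem.mpr ⟨⟨⟨h7, ty⟩, hy, hx⟩,
          fun y' hy' => h.fix_uniq' hf hy'.1.1 tA tK hy'.1.2 ty hy'.2.1 hy⟩⟩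
    rw [cnt_swap, cnt_split _ (adj A ·), cnt_eq _ {B} lam (fun y _ h' => by_contra fun e' =>
      ht.2 (h.path h'.1 hB e' tA h'.2.1.2 tB)) (by
        rintro _ rfl
        have := hsq _ (h.ne hB) tB
        rw [show {z | (∃ u ∈ K A, u • _ = z) ∧ adj _ z} = {z | adj A z ∧ adj _ z} from
          Set.ext fun z => and_congr_left' (Set.ext_iff.mp (horb _ hB) z), h.hlam hB] at this
        rw [← this]
        simp [hB, h.ne hB, tB]), cnt_eq _ {y | Na adj A y ∧ t • y = y} q (fun y _ h' => ⟨⟨h'.2.1.1, h'.1⟩, h'.2.1.2⟩)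
      (fun y hy => by
        rw [← hq' y hy.1, ← hsq y hy.1.1 hy.2]
        congr 1
        ext x
        simp [hy.1.1, hy.1.2, hy.2]), h.fix_na hf hk hc2 he2 hl ht tA] at h6
    simpa using h6.symm
  obtain ⟨θ, h7⟩ : e ∣ q := by
    rw [← hq, ← h.he hD]
    refine Class.card_dvd_ncard_of_free _ _ ?_ ?_
    · rintro g hg _ ⟨⟨u, hu, rfl⟩, h'⟩
      refine ⟨⟨_, h.conjK' hu hg.1, ?_⟩, h.adj_fix hg.2 h'⟩
      rw [← conj_smul g u D, show g • D = D from hg.2]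
    · rintro g hg _ ⟨⟨u, hu, rfl⟩, h'⟩ e'
      by_contra g1
      rw [h.fix_uniq hf hD.1 hg.1 (fun h'' => g1 (hf hD.1 g h'' hg.2)) hg.2 hu e', one_smul] at h'
      exact h.irrefl D h'
  have hsym : ∀ y, A ≠ y → {x | adj y x ∧ ∃ u ∈ K A, u • D = x}.ncard =
      {z | (∃ u ∈ K A, u • y = z) ∧ adj D z}.ncard := fun y hy => by
    rw [show {x | adj y x ∧ ∃ u ∈ K A, u • D = x} = {x | (∃ u ∈ K A, u • D = x) ∧ adj y x} from
      Set.ext fun _ => and_comm, orb_count hf hy, orb_count hf hD.1]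
    exact Set.ncard_congr (fun u _ => u⁻¹) (fun u hu => ⟨inv_mem hu.1, h.symm (by
      simpa using h.smul u⁻¹ hu.2)⟩) (fun _ _ _ _ e => inv_injective e) fun u hu =>
        ⟨u⁻¹, ⟨inv_mem hu.1, h.symm (by simpa using h.smul u⁻¹ hu.2)⟩, inv_inv u⟩
  choose! f hf1 hf2 using fun z (hz : A ≠ z) => h.exists_rep hk hc2 he2 ht tA hz
  let O : Set X := {y | (adj D y ∧ ¬ adj A y) ∧ ¬ ∃ u ∈ K A, u • D = y}
  have hDA : ∀ y, adj D y → A ≠ y := fun y hy e' => hD.2 (h.symm (e' ▸ hy))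
  have hfO : ∀ y, Na adj A y → Na adj A (f y) := fun y hy => by
    obtain ⟨u, hu, e'⟩ := hf2 y hy.1
    have := h.na_fix (h.fixK (inv_mem hu)) hy
    rwa [inv_smul_eq_iff.mpr e'.symm] at this
  have hfe : ∀ y ∈ O, ∀ z, (z ∈ O ∧ f z = f y) ↔ (∃ u ∈ K A, u • y = z) ∧ adj D z := fun y hy z => by
    obtain ⟨u, hu, e'⟩ := hf2 y (hDA y hy.1.1)
    constructor
    · rintro ⟨hz, e''⟩
      obtain ⟨v, hv, h8⟩ := hf2 z (hDA z hz.1.1)
      exact ⟨⟨v * u⁻¹, mul_mem hv (inv_mem hu), by rw [← h8, e'', mul_smul, inv_smul_eq_iff.mpr e'.symm]⟩,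
        hz.1.1⟩
    · rintro ⟨⟨v, hv, rfl⟩, hz⟩
      refine ⟨⟨⟨hz, (h.na_fix (h.fixK hv) ⟨hDA y hy.1.1, hy.1.2⟩).2⟩, fun ⟨w, hw, h8⟩ =>
        hy.2 ⟨v⁻¹ * w, mul_mem (inv_mem hv) hw, by rw [mul_smul, h8, inv_smul_smul]⟩⟩,
        (h.fix_uniq' hf (hfO y ⟨hDA y hy.1.1, hy.1.2⟩).1 tA tK (hf1 y (hDA y hy.1.1))
          (hf1 _ (hDA _ hz)) ⟨v * u, mul_mem hv hu, by rw [mul_smul, e']⟩ (hf2 _ (hDA _ hz))).symm⟩
  obtain ⟨N, hN⟩ : ∃ N, {x | (∃ u ∈ K A, u • D = x) ∧ Na adj D x}.ncard = N := ⟨_, rfl⟩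
  have h8 : mu * mu + q * q + (cnt fun a b => a ∈ O ∧ b ∈ O ∧ f b = f a) =
      k + q * lam + N * mu := by
    have h8 := cnt_swap fun y x => adj D y ∧ adj y x ∧ ∃ u ∈ K A, u • D = x
    rw [cnt_split _ (adj A ·), cnt_split (fun y x => ¬ adj A y ∧ _) (∃ u ∈ K A, u • D = ·),
      cnt_eq _ {y | adj A y ∧ adj D y} mu (fun _ _ h' => ⟨h'.1, h'.2.1⟩) (fun y hy => by
        have := hsym y (h.ne hy.1)
        rw [show {z | (∃ u ∈ K A, u • y = z) ∧ adj D z} = {z | adj A z ∧ adj D z} from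
          Set.ext fun z => and_congr_left' (Set.ext_iff.mp (horb y hy.1) z), h.hmu hD] at this
        rw [← this]
        simp [hy.1, hy.2]),
      cnt_eq _ {y | (∃ u ∈ K A, u • D = y) ∧ adj D y} q (fun _ _ h' => ⟨h'.1, h'.2.2.1⟩) (by
        rintro _ ⟨⟨v, hv, rfl⟩, hy⟩
        have := hsym _ (hDA _ hy)
        rw [show {z | (∃ u ∈ K A, u • v • D = z) ∧ adj D z} = {z | (∃ u ∈ K A, u • D = z) ∧ adj D z} from
          Set.ext fun z => and_congr_left' ⟨fun ⟨u, hu, e'⟩ => ⟨u * v, mul_mem hu hv, by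
            rw [mul_smul, e']⟩, fun ⟨u, hu, e'⟩ => ⟨u * v⁻¹, mul_mem hu (inv_mem hv), by
            rw [mul_smul, inv_smul_smul, e']⟩⟩, hq] at this
        rw [← this]
        congr 1
        ext x
        exact ⟨fun h' => h'.2.2.2, fun h' => ⟨⟨v, hv, rfl⟩, (h.na_fix (h.fixK hv) hD).2, hy, h'⟩⟩),
      h.hmu hD, hq, eq_comm, cnt_split _ (D = ·), cnt_split (fun x y => ¬ D = x ∧ _) (adj D ·),
      cnt_eq _ {D} k (fun _ _ h' => h'.1.symm) (by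
        rintro _ rfl
        rw [← h.hk]
        congr 1
        ext y
        exact ⟨fun h' => h'.2.1, fun h' => ⟨rfl, h', h.symm h', 1, one_mem _, one_smul _ _⟩⟩),
      cnt_eq _ {y | (∃ u ∈ K A, u • D = y) ∧ adj D y} lam (fun _ _ h' => ⟨h'.2.2.2.2, h'.1⟩)
        (fun x hx => by
          rw [← h.hlam hx.2]
          congr 1
          ext y
          exact ⟨fun h' => ⟨h'.2.2.1, h.symm h'.2.2.2.1⟩, fun h' =>
            ⟨hx.2, h.ne hx.2, h'.1, h.symm h'.2, hx.1⟩⟩),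
      cnt_eq _ {y | (∃ u ∈ K A, u • D = y) ∧ Na adj D y} mu
        (fun _ _ h' => ⟨h'.2.2.2.2, h'.2.1, h'.1⟩) (fun x hx => by
          rw [← h.hmu hx.2]
          congr 1
          ext y
          exact ⟨fun h' => ⟨h'.2.2.1, h.symm h'.2.2.2.1⟩, fun h' =>
            ⟨hx.2.2, hx.2.1, h'.1, h.symm h'.2, hx.1⟩⟩), hq, hN, Set.ncard_singleton, one_mul] at h8
    rw [add_assoc, add_assoc, h8]
    congr 2
    have := Fintype.ofFinite X
    rw [cnt_eq_sum, cnt_eq_sum]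
    refine Finset.sum_congr rfl fun y _ => ?_
    by_cases hy : y ∈ O
    · rw [show {b | y ∈ O ∧ b ∈ O ∧ f b = f y} = {z | (∃ u ∈ K A, u • y = z) ∧ adj D z} from
        Set.ext fun z => (and_iff_right hy).trans (hfe y hy z), ← hsym y (hDA y hy.1.1)]
      congr 1
      ext x
      exact ⟨fun h' => ⟨hy.2, hy.1.2, hy.1.1, h'⟩, fun h' => h'.2.2.2⟩
    · congr 1
      ext x
      exact ⟨fun h' => (hy h'.1).elim, fun h' => (hy ⟨⟨h'.2.2.1, h'.2.1⟩, h'.1⟩).elim⟩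
  have h9 : 1 + q + N = k := by
    rw [← h.orb_card hf hD.1, ncard_split _ (D = ·),
      ncard_split {a ∈ {z | ∃ u ∈ K A, u • D = z} | ¬ D = a} (adj D ·), ← hq, ← hN, add_assoc]
    congr 1
    · symm
      exact Set.ncard_eq_one.mpr ⟨D, Set.eq_singleton_iff_unique_mem.mpr
        ⟨⟨⟨1, one_mem _, one_smul _ _⟩, rfl⟩, fun y hy => hy.2.symm⟩⟩
    congr 2 <;> ext y
    · exact ⟨fun h' => ⟨⟨h'.1, h.ne h'.2⟩, h'.2⟩, fun h' => ⟨h'.1.1, h'.2⟩⟩
    · exact ⟨fun h' => ⟨⟨h'.1, h'.2.1⟩, h'.2.2⟩, fun h' => ⟨h'.1.1, h'.1.2, h'.2⟩⟩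
  have h10 : mu + q + O.ncard = k := by
    rw [← h.hk D, ncard_split {y | adj D y} (adj A ·),
      ncard_split {a ∈ {y | adj D y} | ¬ adj A a} (∃ u ∈ K A, u • D = ·), ← hq, ← h.hmu hD, add_assoc]
    congr 2
    · exact Set.ext fun _ => and_comm
    congr 1
    ext y
    exact ⟨fun ⟨⟨u, hu, e'⟩, h'⟩ => ⟨⟨h', e' ▸ (h.na_fix (h.fixK hu) hD).2⟩, u, hu, e'⟩,
      fun h' => ⟨h'.2, h'.1.1⟩⟩
  have h11 := le_cnt (fun a b => a ∈ O ∧ b ∈ O ∧ f b = f a) O 1 fun a ha =>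
    (Set.ncard_pos).mpr ⟨a, ha, ha, rfl⟩
  have h12 := cnt_le (fun a b => a ∈ O ∧ b ∈ O ∧ f b = f a) O O.ncard (fun _ _ h' => h'.1) fun a _ =>
    Set.ncard_le_ncard fun b hb => hb.2.1
  have h13 := (sq_ncard_le O f).trans (Nat.mul_le_mul_right _ (show (f '' O).ncard ≤ m - 1 by
    have := ncard_erase (S := {y | Na adj A y ∧ t • y = y}) ⟨hD, tD⟩
    rw [h.fix_na hf hk hc2 he2 hl ht tA] at this
    rw [← this, Nat.add_sub_cancel]
    refine Set.ncard_le_ncard ?_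
    rintro _ ⟨y, hy, rfl⟩
    exact ⟨⟨hfO y ⟨hDA y hy.1.1, hy.1.2⟩, hf1 y (hDA y hy.1.1)⟩, fun e' =>
      hy.2 (e' ▸ hf2 y (hDA y hy.1.1))⟩))
  obtain ⟨rfl, rfl, rfl⟩ := num5 m2 hc h.one_lt hks s0 hmu hlam he2 hn h1
    ((conj_swap_le ht A B).trans (h.hc hB).le) h3 h4 h5 h6 h7 h8 h9 h10 (by simpa using h11) h12 h13
    (fun e1 e2 => by
      have := h.local_ineq e1 (by rw [hks, e1, e2, mul_one])
      rwa [hmu, e2, mul_one] at this) fun e1 e2 => by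
      obtain ⟨a, ha⟩ := Set.nonempty_of_ncard_ne_zero e2
      obtain ⟨s₀, hs₀, u, hu, su⟩ := Set.nonempty_of_ncard_ne_zero
        (s := {s ∈ {s | Q s} | ∃ u, adj A u ∧ s • u = u}) fun e' => by
          have := h.one_lt
          rw [e', hmu, e1, mul_one] at h5
          rw [← h5] at hc
          omega
      have hDu : adj u D := hs₀.2 ▸ h.adj_fix su (h.symm hu)
      have htc : ∀ g ∈ pairStab G A D, t * g = g * t := fun g hg =>
        (h.comm_of_two hf hk ht hD.1 tA tD (by rcases hg with h' | h' <;> simp [h'.1, tA, tD])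
          (by rcases hg with h' | h' <;> simp [h'.2, tA, tD])).symm
      have hsL : ∀ s, Q s → s ∈ pairStab G A D := fun s hs => Or.inr ⟨hs.2, invol_swap (hQ s hs).1 hs.2⟩
      have tu : t • u ≠ u := fun e' => ht.2 (h.path (h.symm hu) hDu hD.1 e' tA tD)
      have hpair : ({u, t • u} : Set X) = {y | adj A y ∧ s₀ • y = y} := Set.eq_of_subset_of_ncard_le
        (by
          rintro _ (rfl | rfl)
          exacts [⟨hu, su⟩, ⟨h.adj_fix tA hu, by rw [← mul_smul, ← htc _ (hsL _ hs₀), mul_smul, su]⟩])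
        (by rw [hQ2 s₀ u hs₀ hu su, Set.ncard_pair tu.symm])
      rw [← h.he hD]
      refine second_class (E := stabilizer G A ⊓ stabilizer G D) (L := pairStab G A D)
        (fun g hg => Or.inl hg) (hsL _ hs₀) (hQ _ hs₀).1
        (fun h' => hD.1 (h'.1.symm.trans hs₀.2)) (fun g hg g' hg' h1 h2 => ?_) (fun g hg x hx => ?_)
        ⟨tA, tD⟩ ht htc (fun x hx e' => ?_) (fun a ha => ⟨hsL a ha.1,
          fun h' => hD.1 (h'.1.symm.trans ha.1.2), (hQ a ha.1).1, fun x hx e' => ha.2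
            ⟨x • u, h.adj_fix hx.1 hu, by rw [← e', conj_smul, su]⟩⟩) (fun a ha x hx => ?_) ha
      · obtain ⟨h3, h4⟩ := hg.resolve_left h1
        obtain ⟨h5, h6⟩ := hg'.resolve_left h2
        exact ⟨show _ • A = A by rw [mul_smul, h5, h4], show _ • D = D by rw [mul_smul, h6, h3]⟩
      · have xA : x • A = A := hx.1
        have xD : x • D = D := hx.2
        rcases hg with ⟨h1, h2⟩ | ⟨h1, h2⟩
        · exact ⟨show _ • A = A by rw [← h1, conj_smul, xA], show _ • D = D by rw [← h2, conj_smul, xD]⟩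
        · exact ⟨show _ • A = A by rw [← h2, conj_smul, xD], show _ • D = D by rw [← h1, conj_smul, xA]⟩
      · rcases hpair.ge ⟨h.adj_fix hx.1 hu, by rw [← mul_smul, ← e', mul_smul, su]⟩ with h1 | h1
        · exact Or.inl (h.path (h.symm hu) hDu hD.1 h1 hx.1 hx.2)
        · exact Or.inr ((eq_inv_of_mul_eq_one_right (h.path (h.symm hu) hDu hD.1
            (by rw [mul_smul, h1, ht.smul_smul]) (by rw [mul_smul, show x • A = A from hx.1, tA])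
            (by rw [mul_smul, show x • D = D from hx.2, tD]))).trans ht.inv)
      · obtain ⟨⟨⟨g, rfl⟩, h1⟩, h2⟩ := ha
        refine ⟨⟨⟨x * g, by group⟩, ?_⟩, fun ⟨v, hv, h3⟩ => h2 ⟨x⁻¹ • v, h.adj_fix (inv_mem hx).1 hv, ?_⟩⟩
        · have := conj_smul x (g * t * g⁻¹) A
          rwa [h1, show x • A = A from hx.1, show x • D = D from hx.2] at this
        · rw [eq_inv_smul_iff, ← mul_smul, ← mul_smul, h3]
  rw [h.card_X, h.card_G, hl]
  simp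

end R3

end Cfsg.Lib.LG4
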