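import Cfsg.Agent.LG4.R3Odd

/-!
# Rank 3 groups with a Frobenius suborbit: semiregular kernel of odd order, the degree 10 case
-/

namespace Cfsg.Lib.LG4
open MulAction Cfsg.Lib.Perm Cfsg.Lib.Block

variable {G X : Type*} [Group G] [MulAction G X]

theorem conj_swap_le [Finite G] {t : G} (ht : Inv2 t) (a b : X) :
    {s : G | (∃ k, k * t * k⁻¹ = s) ∧ s • a = b}.ncard ≤
      Nat.card ↥(stabilizer G a ⊓ stabilizer G b) :=
  le_trans (Set.ncard_le_ncard fun s hs => And.intro hs.2 (invol_swap (by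
    obtain ⟨⟨g, rfl⟩, -⟩ := hs
    exact conj_sq ht.1 g) hs.2)) (ncard_pair_le a b b a)

namespace R3
variable {adj : X → X → Prop} {K : X → Subgroup G} {k l c e lam mu : ℕ}
  (h : R3 G adj K k l c e lam mu) [Finite G] [Finite X]
include h

omit [Finite X] in
theorem count_adj (t : G) {a b : X} (hab : adj a b) :
    {s : G | (∃ k, k * t * k⁻¹ = s) ∧ s • a = b}.ncard * Nat.card (Subgroup.centralizer {t}) =
      {x | adj x (t • x)}.ncard * c := by
  rw [count_conj_orbital, h.hc hab]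
  congr 2
  ext x
  exact ⟨by rintro ⟨g, h1, h2⟩; change adj _ _; rw [← h2, ← h1]; exact h.smul g hab, h.tr1 hab⟩

omit [Finite X] in
theorem count_na (t : G) {a b : X} (hab : Na adj a b) :
    {s : G | (∃ k, k * t * k⁻¹ = s) ∧ s • a = b}.ncard * Nat.card (Subgroup.centralizer {t}) =
      {x | Na adj x (t • x)}.ncard * e := by
  rw [count_conj_orbital, h.he hab]
  congr 2
  ext x
  exact ⟨by rintro ⟨g, h1, h2⟩; change Na _ _ _; rw [← h2, ← h1]; exact h.nsmul g hab, h.tr2 hab⟩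

omit [Finite G] in
theorem card_X_types (t : G) : Nat.card X =
    {x : X | t • x = x}.ncard + {x | adj x (t • x)}.ncard + {x | Na adj x (t • x)}.ncard := by
  rw [← Set.ncard_univ, ncard_split _ fun x => t • x = x,
    ncard_split {a ∈ Set.univ | ¬ t • a = a} fun x => adj x (t • x), add_assoc]
  congr 1
  · simp
  congr 2 <;> ext y
  · simpa using fun h' : adj y (t • y) => (h.ne h').symm
  · simp [Na, eq_comm]

variable (hf : ∀ {x y : X}, x ≠ y → ∀ u ∈ K x, u • y = y → u = 1)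
include hf

omit h [Finite G] [Finite X] in
theorem orb_count {x y : X} (hxy : x ≠ y) (P : X → Prop) :
    {z | (∃ u ∈ K x, u • y = z) ∧ P z}.ncard = {u | u ∈ K x ∧ P (u • y)}.ncard :=
  (Set.ncard_congr (s := {u | u ∈ K x ∧ P (u • y)}) (t := {z | (∃ u ∈ K x, u • y = z) ∧ P z})
    (fun u _ => u • y) (fun u hu => ⟨⟨u, hu.1, rfl⟩, hu.2⟩) (fun u v hu hv e =>
      (inv_mul_eq_one.mp (hf hxy _ (mul_mem (inv_mem hv.1) hu.1)
        (by rw [mul_smul, e, inv_smul_smul]))).symm)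
    (by rintro _ ⟨⟨u, hu, rfl⟩, hP⟩; exact ⟨u, ⟨hu, hP⟩, rfl⟩)).symm

omit [Finite G] [Finite X] in
theorem orb_card {x y : X} (hxy : x ≠ y) : {z | ∃ u ∈ K x, u • y = z}.ncard = k := by
  have := orb_count hf hxy fun _ => True
  simp only [and_true] at this
  rw [this, ← h.card_K x, ← SetLike.coe_sort_coe, Nat.card_coe_set_eq]
  rfl

theorem fix_uniq {g u : G} {x y : X} (hxy : x ≠ y) (gx : g • x = x) (gK : g ∉ K x) (gy : g • y = y)
    (hu : u ∈ K x) (guy : g • u • y = u • y) : u = 1 := by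
  have h2 := hf hxy _ (mul_mem (inv_mem hu) (h.conjK' hu gx)) (by
    rw [mul_smul, mul_smul, inv_smul_eq_iff.mpr (Eq.symm gy), mul_smul, guy, inv_smul_smul])
  exact by_contra fun u1 => gK (h.memK_of_comm hu u1 gx (by
    rw [← mul_inv_eq_iff_eq_mul, eq_comm, ← inv_mul_eq_one]; exact h2))

theorem fix_uniq' {g : G} {x y y' z : X} (hxy : x ≠ y) (gx : g • x = x) (gK : g ∉ K x)
    (gy : g • y = y) (gy' : g • y' = y') (h1 : ∃ u ∈ K x, u • y = z) (h2 : ∃ u ∈ K x, u • y' = z) :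
    y = y' := by
  obtain ⟨u, hu, rfl⟩ := h1
  obtain ⟨v, hv, e⟩ := h2
  have h3 : (v⁻¹ * u) • y = y' := by rw [mul_smul, ← e, inv_smul_smul]
  rw [← h3, h.fix_uniq hf hxy gx gK gy (mul_mem (inv_mem hv) hu) (by rw [h3, gy']), one_smul]

theorem exists_m [Nonempty X] : ∃ m, 2 ≤ m ∧ l = k * m ∧ c = m * e := by
  obtain ⟨x⟩ := ‹Nonempty X›
  have : Nonempty X := ⟨x⟩
  obtain ⟨m, hm⟩ : k ∣ l := by
    rw [← h.card_K x, ← h.hl x]
    exact Class.card_dvd_ncard_of_free _ _ (fun g hg y hy => h.na_fix (h.fixK hg) hy)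
      fun g hg y hy e => hf hy.1 g hg e
  have h1 := h.one_lt_k
  have h2 : c = m * e := Nat.eq_of_mul_eq_mul_left (by omega : 0 < k) (by rw [h.kc_eq, hm, mul_assoc])
  obtain ⟨y, hy⟩ := h.ex_na x
  refine ⟨m, by_contra fun hlt => ?_, hm, h2⟩
  have := h.one_lt
  obtain rfl | rfl : m = 0 ∨ m = 1 := by omega
  · omega
  · exact h.not_reg hy (hf hy.1) (by omega)

theorem fix_na_le {g : G} {x : X} (gx : g • x = x) (gK : g ∉ K x) :
    {y | Na adj x y ∧ g • y = y}.ncard * k ≤ l := by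
  have := dc_le (fun y z => (Na adj x y ∧ g • y = y) ∧ ∃ u ∈ K x, u • y = z)
    {y | Na adj x y ∧ g • y = y} {y | Na adj x y} k 1
    (fun y hy => h.orb_card hf hy.1.1 ▸ Set.ncard_le_ncard fun z hz => ⟨hy, hz⟩)
    (by rintro y _ ⟨hy, u, hu, rfl⟩; exact h.na_fix (h.fixK hu) hy.1) fun z _ =>
      (Set.ncard_le_one).mpr fun y hy y' hy' => h.fix_uniq' hf hy.1.1.1 gx gK hy.1.2 hy'.1.2 hy.2 hy'.2
  rwa [h.hl, mul_one] at this

variable (hk : k % 2 = 1)
include hk

theorem eq_of_two {s t : G} (hs : Inv2 s) (ht : Inv2 t) {x y : X} (hxy : x ≠ y) (sx : s • x = x)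
    (tx : t • x = x) (sy : s • y = y) (ty : t • y = y) : s = t :=
  (eq_inv_of_mul_eq_one_left (hf hxy _ (h.mul_memK hk hs ht sx tx)
    (by rw [mul_smul, ty, sy]))).trans ht.inv

theorem comm_of_two {t g : G} (ht : Inv2 t) {x y : X} (hxy : x ≠ y) (tx : t • x = x)
    (ty : t • y = y) (h1 : t • g • x = g • x) (h2 : t • g • y = g • y) : g * t = t * g :=
  mul_inv_eq_iff_eq_mul.mp (h.eq_of_two hf hk (ht.conj g) ht (smul_ne hxy)
    (by rw [conj_smul, tx]) h1 (by rw [conj_smul, ty]) h2)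

theorem case_four [Nonempty X] (hc2 : 2 ∣ c) (he : e % 2 = 1) :
    Nat.card X = 10 ∧ Nat.card G = 60 := by
  obtain ⟨A⟩ := ‹Nonempty X›
  have : Nonempty X := ⟨A⟩
  have hfix : ∀ {t : G} {x y z : X}, Inv2 t → adj x y → t • x = x → t • y = y → t • z = z →
      z = x ∨ z = y := fun {t x y z} ht hxy tx ty tz => by_contra fun hcon => by
    push Not at hcon
    by_cases h1 : adj x z
    · exact ht.2 (h.path hxy h1 hcon.2.symm tx ty tz)
    · have := ht.two_dvd (H := stabilizer G x ⊓ stabilizer G z) ⟨tx, tz⟩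
      rw [h.he ⟨hcon.1.symm, h1⟩] at this
      omega
  obtain ⟨m, m2, hl, hc⟩ := h.exists_m hf
  obtain ⟨w, w0, hw⟩ := h.k_eq
  obtain ⟨D, hD⟩ := h.ex_na A
  have c1 := h.one_lt
  obtain ⟨rfl, rfl⟩ : w = 1 ∧ m = 2 := by
    obtain ⟨B, hB⟩ := h.ex_adj A
    obtain ⟨t, ht, tA, tB⟩ := h.exists_inv_edge hc2 hB
    have h1 : {x : X | t • x = x}.ncard ≤ 2 :=
      (Set.ncard_le_ncard fun z hz => hfix ht hB tA tB hz).trans (Set.ncard_pair (h.ne hB)).le
    have h2 : Nat.card (Subgroup.centralizer {t}) ≤ 2 * c := by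
      rw [card_eq_ncard_mul_card_inf_stabilizer _ A _ fun _ => Iff.rfl, ← h.hc hB]
      refine Nat.mul_le_mul (le_trans (Set.ncard_le_ncard ?_) h1) (Subgroup.card_le_of_le fun g hg =>
        ⟨hg.2, (hfix ht hB tA tB (by
          rw [← mul_smul, ← Subgroup.mem_centralizer_singleton_iff.mp hg.1, mul_smul, tB])).resolve_left
            (h.ne (h.adj_fix hg.2 hB)).symm⟩)
      rintro _ ⟨g, hg, rfl⟩
      change t • _ = _
      rw [← mul_smul, ← Subgroup.mem_centralizer_singleton_iff.mp hg, mul_smul, tA]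
    have h3 := Nat.mul_le_mul ((conj_swap_le ht A B).trans (h.hc hB).le) h2
    have h4 := Nat.mul_le_mul ((conj_swap_le ht A D).trans (h.he hD).le) h2
    rw [h.count_adj t hB, mul_comm c] at h3
    rw [h.count_na t hD, mul_comm e] at h4
    have h5 := Nat.le_of_mul_le_mul_right h3 (by omega)
    have h6 := Nat.le_of_mul_le_mul_right h4 (by omega)
    have h7 := h.card_X_types t
    rw [h.card_X, hl, hw] at h7
    have h8 : c * (w * (1 + m)) < c * 4 := by nlinarith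
    have h9 := Nat.lt_of_mul_lt_mul_left h8
    obtain rfl : w = 1 := by nlinarith
    omega
  suffices e = 1 by
    rw [h.card_X, h.card_G]
    subst this hc hw hl
    simp
  by_contra e1
  obtain ⟨p, hp, hpe⟩ := Nat.exists_prime_and_dvd e1
  have := Fact.mk hp
  obtain ⟨P, hP⟩ := exists_isSylowIn p (stabilizer G A ⊓ stabilizer G D)
  obtain ⟨g, gP, g1⟩ : ∃ g ∈ P, g ≠ 1 := by
    by_contra hcon
    push Not at hcon
    have := hP.not_dvd_relIndex
    rw [(Subgroup.eq_bot_iff_forall P).mpr hcon, Subgroup.relIndex_bot_left, h.he hD] at this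
    exact this hpe
  obtain ⟨n, nA, nD, hn⟩ : ∃ n : G, n • A = D ∧ n • D = A ∧ n ∈ Subgroup.normalizer (P : Set G) := by
    obtain ⟨r, rA, rD⟩ := h.tr2 hD (h.nsymm hD)
    obtain ⟨x, hx, hxle⟩ := hP.exists_conj_le (Q := P.map (MulAut.conj r).toMonoidHom)
      (hP.isPGroup.map _) (by
        rintro _ ⟨u, hu, rfl⟩
        exact ⟨show (r * u * r⁻¹) • A = A by rw [← rD, conj_smul, show u • D = D from (hP.le hu).2],
          show (r * u * r⁻¹) • D = D by rw [← rA, conj_smul, show u • A = A from (hP.le hu).1]⟩)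
    rw [map_conj_map_conj] at hxle
    exact ⟨x * r, by rw [mul_smul, rA, show x • D = D from hx.2],
      by rw [mul_smul, rD, show x • A = A from hx.1],
      map_conj_eq_self_iff.mp (Subgroup.eq_of_le_of_card_ge hxle (card_map_conj _ _).ge)⟩
  obtain ⟨B, hB, PB⟩ := exists_fixed_of_not_dvd_ncard hp P hP.isPGroup {y | adj A y}
    (fun u hu y hy => h.adj_fix (hP.le hu).1 hy) (by
      rw [h.hk, hw, hc]
      exact fun h' => hp.one_lt.ne' (Nat.dvd_one.mp ((Nat.dvd_add_right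
        ((hpe.mul_left 2).mul_right 1)).mp h')))
  obtain ⟨t, ht, tA, tB⟩ := h.exists_inv_edge hc2 hB
  have PA : ∀ u ∈ P, u • A = A := fun u hu => (hP.le hu).1
  have PD : ∀ u ∈ P, u • D = D := fun u hu => (hP.le hu).2
  have htn : t ∈ Subgroup.normalizer (P : Set G) := Subgroup.mem_normalizer_fintype fun u hu => by
    rwa [← h.comm_of_two hf hk ht (h.ne hB) tA tB (by rw [PA u hu, tA]) (by rw [PB u hu, tB]),
      mul_inv_cancel_right]
  have tD : t • D ≠ D := fun e' => (hfix ht hB tA tB e').elim hD.1.symm fun e' => hD.2 (e' ▸ hB)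
  have gK : g ∉ K A := fun h' => g1 (hf hD.1 g h' (PD g gP))
  have h1 : {D, t • D} = {y | Na adj A y ∧ g • y = y} := by
    refine Set.eq_of_subset_of_ncard_le ?_ ?_
    · rintro _ (rfl | rfl)
      exacts [⟨hD, PD g gP⟩, ⟨h.na_fix tA hD, smul_fixed_of_mem_normalizer htn PD g gP⟩]
    · have := h.fix_na_le hf (PA g gP) gK
      rw [hl, mul_comm k] at this
      exact (Nat.le_of_mul_le_mul_right this (by omega)).trans (Set.ncard_pair tD.symm).ge
  have h2 : ∀ y, g • y = y → y ∈ ({A, B, D, t • D} : Set X) := fun y hy => by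
    by_cases e1 : A = y
    · exact Or.inl e1.symm
    by_cases e2 : adj A y
    · exact Or.inr (Or.inl (by_contra fun e3 =>
        g1 (h.path e2 hB e3 (PA g gP) hy (PB g gP))))
    · exact Or.inr (Or.inr (h1.ge ⟨⟨e1, e2⟩, hy⟩))
  have h3 : n • B = t • D := by
    have h3 : adj D (n • B) := nA ▸ h.smul n hB
    rcases h2 _ (smul_fixed_of_mem_normalizer hn PB g gP) with h4 | h4 | h4 | h4
    · exact (hD.2 (h.symm (h4 ▸ h3))).elim
    · exact (g1 (h.path (h.symm hB) (h.symm (h4 ▸ h3)) hD.1 (PB g gP) (PA g gP) (PD g gP))).elim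
    · exact (h.irrefl D (h4 ▸ h3)).elim
    · exact h4
  have h4 := card_eq_ncard_mul_card_inf_stabilizer (Subgroup.normalizer (P : Set G)) A
    {A, B, D, t • D} fun y => ⟨by
      rintro (rfl | rfl | rfl | rfl)
      exacts [⟨1, one_mem _, one_smul _ _⟩, ⟨n⁻¹ * t * n, mul_mem (mul_mem (inv_mem hn) htn) hn, by
        rw [mul_smul, mul_smul, nA, ← h3, inv_smul_smul]⟩, ⟨n, hn, nA⟩,
        ⟨t * n, mul_mem htn hn, by rw [mul_smul, nA]⟩], by
      rintro ⟨r, hr, rfl⟩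
      exact h2 _ (smul_fixed_of_mem_normalizer hr PA g gP)⟩
  have h5 := h.na_fix tA hD
  rw [Set.ncard_insert_of_notMem (by
    rintro (e' | e' | e')
    exacts [h.ne hB e', hD.1 e', h5.1 e']), Set.ncard_insert_of_notMem (by
    rintro (e' | e')
    exacts [hD.2 (e' ▸ hB), h5.2 (e' ▸ hB)]), Set.ncard_pair tD.symm] at h4
  obtain ⟨r, hr⟩ := ht.two_dvd (H := Subgroup.normalizer (P : Set G) ⊓ stabilizer G A) ⟨htn, tA⟩
  obtain ⟨r', h6⟩ := Subgroup.card_subgroup_dvd_card (Subgroup.normalizer (P : Set G))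
  rw [h4, hr, h.card_G, hl, hw, hc] at h6
  obtain ⟨a, rfl⟩ : ∃ a, e = 2 * a + 1 := ⟨e / 2, by omega⟩
  have h7 : (6 * a + 5) * ((4 * a + 3) * (2 * a + 1)) = 2 * (r * r') :=
    Nat.eq_of_mul_eq_mul_left (by norm_num : 0 < 4) (by linarith)
  have h8 := congrArg (· % 2) h7
  simp [Nat.mul_mod, Nat.add_mod] at h8

end R3

end Cfsg.Lib.LG4
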